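import Mathlib
import Cfsg.Prelude
import Cfsg.Agent.S0215
import Cfsg.Agent.Lib.Coprime.Action
import Cfsg.Agent.Lib.Coprime.BProp
import Cfsg.Agent.Lib.Basic.Core

/-!
# Abelian Sylow 2-subgroups: a normal subgroup with abelian 2-quotient contains them

Let `I` be normal in the finite group `X`, with `X / I` an abelian 2-group, `O(X) = 1` and
`C_X(I) = 1`. If a Sylow 2-subgroup `T` is abelian, then `T ≤ I`. The proof lifts an element
of `T` outside `I` to a fixed point of an odd complement in `N_X(T)` and applies the `Z*`-theorem.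
-/

set_option autoImplicit false
set_option linter.unusedSectionVars false

namespace Cfsg.Agent.Lib.AutZ

open Cfsg

variable {X : Type*} [Group X] [Finite X]

/-- An involution of an abelian Sylow 2-subgroup `T` fixed by `N_X(T)` has no other conjugates
in `T`. -/
theorem conj_eq_of_fixed (T : Sylow 2 X) (hT : ∀ a ∈ (T : Subgroup X), ∀ b ∈ (T : Subgroup X), a * b = b * a)
    {i : X} (hiT : i ∈ (T : Subgroup X))
    (hfix : ∀ n ∈ Subgroup.normalizer ((T : Subgroup X) : Set X), n * i * n⁻¹ = i)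
    (g : X) (hg : g * i * g⁻¹ ∈ (T : Subgroup X)) : g * i * g⁻¹ = i := by
  classical
  set y := g * i * g⁻¹ with hy
  -- the conjugate Sylow
  let T₁ : Sylow 2 X := g • T
  have hT₁ : (T₁ : Subgroup X) = (T : Subgroup X).map (MulAut.conj g).toMonoidHom := by
    rw [Sylow.coe_subgroup_smul]; rfl
  let C := Subgroup.centralizer ({y} : Set X)
  have h1 : (T : Subgroup X) ≤ C := by
    intro a ha
    rw [Subgroup.mem_centralizer_singleton_iff]
    exact hT a ha y hg
  have h2 : (T₁ : Subgroup X) ≤ C := by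
    intro a ha
    rw [hT₁] at ha
    obtain ⟨b, hb, rfl⟩ := ha
    rw [Subgroup.mem_centralizer_singleton_iff]
    simp only [MulEquiv.coe_toMonoidHom, MulAut.conj_apply, hy]
    have := hT b hb i hiT
    calc g * b * g⁻¹ * (g * i * g⁻¹) = g * (b * i) * g⁻¹ := by group
      _ = g * (i * b) * g⁻¹ := by rw [this]
      _ = g * i * g⁻¹ * (g * b * g⁻¹) := by group
  obtain ⟨c, hc, hcT⟩ := Cfsg.Agent.Lib.Coprime.BP.sylow_conj_in C T₁ T h2 h1
  have hcy : c * y = y * c := (Subgroup.mem_centralizer_singleton_iff.1 hc)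
  have hn : c * g ∈ Subgroup.normalizer ((T : Subgroup X) : Set X) := by
    rw [Subgroup.mem_normalizer_iff_map_conj_eq, map_mul]
    have : ((MulAut.conj c * MulAut.conj g : MulAut X) : X →* X)
        = (MulAut.conj c).toMonoidHom.comp (MulAut.conj g).toMonoidHom := by
      ext; rfl
    rw [this, ← Subgroup.map_map, ← hT₁]
    exact hcT.symm
  have := hfix _ hn
  calc y = c * y * c⁻¹ := by rw [hcy]; group
    _ = (c * g) * i * (c * g)⁻¹ := by rw [hy]; group
    _ = i := this

/-- The core statement. -/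
theorem sylow_le_of_abelian_quot (I : Subgroup X) [I.Normal]
    (hab : ∀ x y : X, x * y * x⁻¹ * y⁻¹ ∈ I)
    (hO : pPrimeCore 2 X = ⊥)
    (hC : ∀ z : X, (∀ a ∈ I, z * a = a * z) → z = 1)
    (T : Sylow 2 X) (hT : ∀ a ∈ (T : Subgroup X), ∀ b ∈ (T : Subgroup X), a * b = b * a) :
    (T : Subgroup X) ≤ I := by
  classical
  intro x hxT
  by_contra hxI
  haveI : Fact (Nat.Prime 2) := ⟨Nat.prime_two⟩
  set N := Subgroup.normalizer ((T : Subgroup X) : Set X) with hN
  have hTN : (T : Subgroup X) ≤ N := Subgroup.le_normalizer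
  haveI hT'n : ((T : Subgroup X).subgroupOf N).Normal := Subgroup.normal_in_normalizer
  have hcard' : Nat.card ((T : Subgroup X).subgroupOf N) = Nat.card (T : Subgroup X) :=
    Nat.card_congr (Subgroup.subgroupOfEquivOfLe hTN).toEquiv
  obtain ⟨k, hk⟩ := IsPGroup.iff_card.1 T.isPGroup'
  have hindex : Odd ((T : Subgroup X).subgroupOf N).index := by
    have h1 : ((T : Subgroup X).subgroupOf N).index ∣ (T : Subgroup X).index := by
      exact Subgroup.relIndex_dvd_index_of_le hTN
    have h2 : ¬ 2 ∣ (T : Subgroup X).index := T.not_dvd_index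
    exact Nat.odd_iff.2 (by
      have : ¬ 2 ∣ ((T : Subgroup X).subgroupOf N).index := fun h => h2 (h.trans h1)
      omega)
  have hcop : Nat.Coprime (Nat.card ((T : Subgroup X).subgroupOf N))
      ((T : Subgroup X).subgroupOf N).index := by
    rw [hcard', hk]
    exact Nat.Coprime.pow_left _ (Nat.coprime_two_left.2 hindex)
  obtain ⟨W₀, hW₀⟩ := Subgroup.exists_right_complement'_of_coprime hcop
  let W : Subgroup X := W₀.map N.subtype
  have hWN : W ≤ N := by
    rintro _ ⟨w, -, rfl⟩
    exact w.2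
  have hcardW : Nat.card W = ((T : Subgroup X).subgroupOf N).index := by
    have h1 : Nat.card W = Nat.card W₀ :=
      (Nat.card_congr (W₀.equivMapOfInjective N.subtype N.subtype_injective).toEquiv).symm
    rw [h1]
    have h2 := hW₀.card_mul_card
    have h3 := Subgroup.card_mul_index ((T : Subgroup X).subgroupOf N)
    have hpos : 0 < Nat.card ((T : Subgroup X).subgroupOf N) := Nat.card_pos
    exact Nat.eq_of_mul_eq_mul_left hpos (h2.trans h3.symm)
  haveI : Group.IsNilpotent (T : Subgroup X) := T.isPGroup'.isNilpotent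
  have hact : Cfsg.Agent.Lib.Coprime.CoprimeAction W (T : Subgroup X) :=
    { normalizes := hWN
      coprime := by
        rw [hcardW, hk]
        exact Nat.Coprime.pow_right _ (Nat.coprime_two_right.2 hindex)
      solvable := Or.inr inferInstance }
  have hconjT : ∀ a ∈ W, ∀ h ∈ (T : Subgroup X), a * h * a⁻¹ ∈ (T : Subgroup X) := fun a ha h hh =>
    (Subgroup.mem_normalizer_iff.1 (hWN ha) h).1 hh
  have hN₀ : W ≤ Subgroup.normalizer (((T : Subgroup X) ⊓ I : Subgroup X) : Set X) := by
    intro a ha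
    rw [Subgroup.mem_normalizer_iff]
    intro h
    constructor
    · rintro ⟨h1, h2⟩
      exact ⟨hconjT a ha h h1, ‹I.Normal›.conj_mem h h2 a⟩
    · rintro ⟨h1, h2⟩
      refine ⟨(Subgroup.mem_normalizer_iff.1 (hWN ha) h).2 h1, ?_⟩
      have := ‹I.Normal›.conj_mem _ h2 a⁻¹
      simpa [mul_assoc] using this
  obtain ⟨n, hn, c, hc, hxc⟩ := hact.exists_mul_centralizer (N := (T : Subgroup X) ⊓ I)
    inf_le_left hN₀ hxT (fun a ha => by
      refine ⟨?_, hab x a⟩
      have := hconjT a ha x⁻¹ ((T : Subgroup X).inv_mem hxT)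
      have h2 := (T : Subgroup X).mul_mem hxT this
      have h3 : x * a * x⁻¹ * a⁻¹ = x * (a * x⁻¹ * a⁻¹) := by group
      rw [h3]
      exact h2)
  have hcI : c ∉ I := fun h => hxI (hxc ▸ I.mul_mem hn.2 h)
  have hc1 : c ≠ 1 := fun h => hcI (h ▸ I.one_mem)
  have hcT : c ∈ (T : Subgroup X) := hc.1
  obtain ⟨m, hm⟩ := (IsPGroup.iff_orderOf.1 T.isPGroup') ⟨c, hcT⟩
  have hm' : orderOf c = 2 ^ m := by
    rw [← hm]; exact (Subgroup.orderOf_mk c hcT).symm
  have hm0 : m ≠ 0 := by
    rintro rfl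
    exact hc1 (orderOf_eq_one_iff.1 (by simpa using hm'))
  have h2ord : 2 ∣ orderOf c := by
    rw [hm']; exact dvd_pow_self 2 hm0
  have hpos : orderOf c ≠ 0 := by
    rw [hm']; positivity
  set i := c ^ (orderOf c / 2) with hi
  have hi2 : orderOf i = 2 := orderOf_pow_orderOf_div hpos h2ord
  have hiT : i ∈ (T : Subgroup X) := (T : Subgroup X).pow_mem hcT _
  have hfix : ∀ n ∈ N, n * i * n⁻¹ = i := by
    intro n hn
    obtain ⟨⟨t, w⟩, htw⟩ := hW₀.2 (⟨n, hn⟩ : N)
    have htw' : (t : N).1 * (w : N).1 = n := congrArg Subtype.val htw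
    have htT : (t : N).1 ∈ (T : Subgroup X) := t.2
    have hwW : (w : N).1 ∈ W := ⟨w, w.2, rfl⟩
    have hwi : (w : N).1 * i = i * (w : N).1 := by
      have hcw : (w : N).1 * c = c * (w : N).1 := by
        have := Subgroup.mem_centralizer_iff.1 hc.2 _ hwW
        exact this
      exact (Commute.pow_right hcw _)
    have hti : (t : N).1 * i = i * (t : N).1 := hT _ htT _ hiT
    rw [← htw']
    calc (t : N).1 * (w : N).1 * i * ((t : N).1 * (w : N).1)⁻¹
        = (t : N).1 * ((w : N).1 * i) * (w : N).1⁻¹ * (t : N).1⁻¹ := by group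
      _ = ((t : N).1 * i) * (t : N).1⁻¹ := by rw [hwi]; group
      _ = i := by rw [hti]; group
  obtain ⟨K, hKn, hKo, hK⟩ := Cfsg.Agent.S0215.result T i hi2 hiT
    (fun g hg => conj_eq_of_fixed T hT hiT hfix g hg)
  have hK0 : K = ⊥ := by
    have : K ≤ pPrimeCore 2 X := Cfsg.Agent.Lib.Basic.le_pPrimeCore hKn
      (Nat.coprime_two_right.2 hKo)
    rw [hO] at this
    exact le_bot_iff.1 this
  have hz : i = 1 := by
    apply hC
    intro a _
    have := hK a
    rw [hK0, Subgroup.mem_bot] at this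
    have h3 : i * a * i⁻¹ = a := by
      have h4 := mul_eq_one_iff_eq_inv.1 this
      simpa using h4
    calc i * a = i * a * i⁻¹ * i := by group
      _ = a * i := by rw [h3]
  rw [hz] at hi2
  simp at hi2

end Cfsg.Agent.Lib.AutZ
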