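import Mathlib
import Cfsg.Prelude
import Cfsg.Agent.Lib.AutZ.Core

/-!
# An element of 2-power order centralizing an abelian Sylow 2-subgroup of a normal subgroup

In a finite group `A`, let `I₀` be normal, `α` of 2-power order, `Γ = I₀ ⟨α⟩`. Suppose `α` centralizes
a maximal 2-subgroup `S` of `I₀`, `S` is abelian, `O(Γ) ∩ I₀ = 1` and `C_Γ(I₀) = 1`. Then `α ∈ I₀`.
-/

set_option autoImplicit false
set_option linter.unusedSectionVars false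

namespace Cfsg.Agent.Lib.AutZ

open Cfsg

variable {A : Type*} [Group A] [Finite A] (I₀ : Subgroup A) [hn : I₀.Normal] (α : A)

theorem exists_of_mem_sup {x : A} (hx : x ∈ I₀ ⊔ Subgroup.zpowers α) :
    ∃ i ∈ I₀, ∃ k : ℤ, x = i * α ^ k := by
  have hx' : x ∈ ((I₀ ⊔ Subgroup.zpowers α : Subgroup A) : Set A) := hx
  rw [Subgroup.normal_mul] at hx'
  obtain ⟨i, hi, y, hy, h⟩ := Set.mem_mul.1 hx'
  obtain ⟨k, rfl⟩ := Subgroup.mem_zpowers_iff.1 hy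
  exact ⟨i, hi, k, h.symm⟩

theorem commutator_mem_of_mem_sup {x y : A} (hx : x ∈ I₀ ⊔ Subgroup.zpowers α)
    (hy : y ∈ I₀ ⊔ Subgroup.zpowers α) : x * y * x⁻¹ * y⁻¹ ∈ I₀ := by
  obtain ⟨a, ha, k, rfl⟩ := exists_of_mem_sup I₀ α hx
  obtain ⟨b, hb, l, rfl⟩ := exists_of_mem_sup I₀ α hy
  rw [← QuotientGroup.eq_one_iff]
  have ha' : ((a : A) : A ⧸ I₀) = 1 := (QuotientGroup.eq_one_iff a).2 ha
  have hb' : ((b : A) : A ⧸ I₀) = 1 := (QuotientGroup.eq_one_iff b).2 hb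
  simp only [QuotientGroup.mk_mul, QuotientGroup.mk_inv, QuotientGroup.mk_zpow, mul_inv_rev, ha', hb',
    one_mul, inv_one, mul_one]
  have hc : Commute ((α : A ⧸ I₀) ^ k) ((α : A ⧸ I₀) ^ l) :=
    (Commute.refl _).zpow_zpow k l
  rw [hc.eq]
  group

theorem mem_of_mem_sup_of_coprime {j : ℕ} (hα : α ^ 2 ^ j = 1) {x : A}
    (hx : x ∈ I₀ ⊔ Subgroup.zpowers α) {m : ℕ} (hm : Odd m) (hxm : x ^ m = 1) : x ∈ I₀ := by
  obtain ⟨a, ha, k, hk⟩ := exists_of_mem_sup I₀ α hx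
  rw [← QuotientGroup.eq_one_iff]
  have ha' : ((a : A) : A ⧸ I₀) = 1 := (QuotientGroup.eq_one_iff a).2 ha
  have hq : ((x : A) : A ⧸ I₀) = (α : A ⧸ I₀) ^ k := by
    rw [hk, QuotientGroup.mk_mul, ha', one_mul, QuotientGroup.mk_zpow]
  have h1 : ((x : A) : A ⧸ I₀) ^ m = 1 := by
    rw [← QuotientGroup.mk_pow, hxm]; rfl
  have h2 : ((x : A) : A ⧸ I₀) ^ 2 ^ j = 1 := by
    rw [hq, ← zpow_natCast, ← zpow_mul, mul_comm, zpow_mul, zpow_natCast, ← QuotientGroup.mk_pow, hα]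
    simp
  have hcop : Nat.Coprime m (2 ^ j) := Nat.Coprime.pow_right j (Nat.coprime_two_right.2 hm)
  have h3 := orderOf_dvd_of_pow_eq_one h1
  have h4 := orderOf_dvd_of_pow_eq_one h2
  exact orderOf_eq_one_iff.1 (Nat.eq_one_of_dvd_coprimes hcop h3 h4)

theorem mem_of_centralizes_sylow {j : ℕ} (hα : α ^ 2 ^ j = 1)
    (hO : ∀ D : Subgroup A, D ≤ I₀ → D ≤ I₀ ⊔ Subgroup.zpowers α → Odd (Nat.card D) →
      (∀ x ∈ I₀ ⊔ Subgroup.zpowers α, ∀ d ∈ D, x * d * x⁻¹ ∈ D) → D = ⊥)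
    (hC : ∀ z ∈ I₀ ⊔ Subgroup.zpowers α, (∀ a ∈ I₀, z * a = a * z) → z = 1)
    (S : Subgroup A) (hSI : S ≤ I₀)
    (hSmax : ∀ Q : Subgroup A, Q ≤ I₀ → IsPGroup 2 Q → S ≤ Q → Q = S)
    (hS2 : IsPGroup 2 S)
    (hScomm : ∀ a ∈ S, ∀ b ∈ S, a * b = b * a)
    (hαS : ∀ s ∈ S, α * s = s * α) : α ∈ I₀ := by
  classical
  haveI : Fact (Nat.Prime 2) := ⟨Nat.prime_two⟩
  obtain ⟨Γ, hΓ⟩ : ∃ Γ : Subgroup A, Γ = I₀ ⊔ Subgroup.zpowers α := ⟨_, rfl⟩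
  rw [← hΓ] at hO hC
  have hαΓ : α ∈ Γ := hΓ ▸ (le_sup_right : Subgroup.zpowers α ≤ _) (Subgroup.mem_zpowers α)
  have hIΓ : I₀ ≤ Γ := hΓ ▸ le_sup_left
  let I : Subgroup Γ := I₀.subgroupOf Γ
  haveI hIn : I.Normal := inferInstance
  have hab : ∀ x y : Γ, x * y * x⁻¹ * y⁻¹ ∈ I := by
    intro x y
    rw [Subgroup.mem_subgroupOf]
    have hx : (x : A) ∈ I₀ ⊔ Subgroup.zpowers α := hΓ ▸ x.2
    have hy : (y : A) ∈ I₀ ⊔ Subgroup.zpowers α := hΓ ▸ y.2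
    exact commutator_mem_of_mem_sup I₀ α hx hy
  have hO' : Cfsg.pPrimeCore 2 Γ = ⊥ := by
    obtain ⟨D, hD⟩ : ∃ D, D = Cfsg.pPrimeCore 2 Γ := ⟨_, rfl⟩
    rw [← hD]
    haveI hDn : D.Normal := hD ▸ Cfsg.Agent.Lib.Basic.pPrimeCore_normal 2
    have hDc : (Nat.card D).Coprime 2 := hD ▸ Cfsg.Agent.Lib.Basic.pPrimeCore_coprime 2
    have hDodd : Odd (Nat.card D) := Nat.coprime_two_right.1 hDc
    have hcardmap : Nat.card (D.map Γ.subtype) = Nat.card D :=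
      (Nat.card_congr (D.equivMapOfInjective Γ.subtype Γ.subtype_injective).toEquiv).symm
    have hDI : D.map Γ.subtype ≤ I₀ := by
      rintro _ ⟨d, hd, rfl⟩
      have hx : (d : A) ∈ I₀ ⊔ Subgroup.zpowers α := hΓ ▸ d.2
      refine mem_of_mem_sup_of_coprime I₀ α hα hx hDodd ?_
      have h1 : d ^ Nat.card D = 1 := by
        have := pow_card_eq_one' (x := (⟨d, hd⟩ : D))
        exact congrArg Subtype.val this
      exact congrArg Subtype.val h1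
    have hDΓ : D.map Γ.subtype ≤ Γ := by
      rintro _ ⟨d, hd, rfl⟩
      exact d.2
    have := hO (D.map Γ.subtype) hDI hDΓ (hcardmap ▸ hDodd) (by
      rintro x hx _ ⟨d, hd, rfl⟩
      refine ⟨⟨x, hx⟩ * d * ⟨x, hx⟩⁻¹, hDn.conj_mem d hd _, rfl⟩)
    exact (Subgroup.map_eq_bot_iff_of_injective _ Γ.subtype_injective).1 this
  have hC' : ∀ z : Γ, (∀ a ∈ I, z * a = a * z) → z = 1 := by
    intro z hz
    apply Subtype.ext
    apply hC z z.2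
    intro a ha
    have h1 := hz ⟨a, hIΓ ha⟩ ha
    exact congrArg Subtype.val h1
  -- the 2-group `S ⟨α⟩`
  let T₀ : Subgroup A := S ⊔ Subgroup.zpowers α
  have hcommT₀ : ∀ u ∈ S, ∀ v ∈ Subgroup.zpowers α, u * v = v * u := by
    intro u hu v hv
    obtain ⟨k, rfl⟩ := Subgroup.mem_zpowers_iff.1 hv
    have : Commute α u := hαS u hu
    exact (this.zpow_left k).eq.symm
  have hT₀Γ : T₀ ≤ Γ := sup_le (hSI.trans hIΓ) ((Subgroup.zpowers_le).2 hαΓ)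
  have hT₀2 : IsPGroup 2 (T₀.subgroupOf Γ) := by
    rw [IsPGroup]
    rintro ⟨⟨x, hxΓ⟩, hx⟩
    rw [Subgroup.mem_subgroupOf] at hx
    obtain ⟨u, hu, v, hv, rfl⟩ := Cfsg.Agent.Lib.Coprime.BP.exists_mul_of_mem_sup S
      (Subgroup.zpowers α) hcommT₀ hx
    obtain ⟨a, ha⟩ := hS2 ⟨u, hu⟩
    obtain ⟨k, rfl⟩ := Subgroup.mem_zpowers_iff.1 hv
    refine ⟨a + j, ?_⟩
    apply Subtype.ext
    apply Subtype.ext
    have hc : Commute u (α ^ k) := hcommT₀ u hu _ (Subgroup.zpow_mem_zpowers α k)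
    have hu1 : u ^ 2 ^ a = 1 := congrArg Subtype.val ha
    have hv1 : (α ^ k) ^ 2 ^ (a + j) = 1 := by
      rw [← zpow_natCast, ← zpow_mul, mul_comm, zpow_mul, zpow_natCast, pow_add, mul_comm, pow_mul, hα]
      simp
    show (u * α ^ k) ^ 2 ^ (a + j) = 1
    rw [hc.mul_pow, hv1, mul_one, pow_add, pow_mul, hu1, one_pow]
  obtain ⟨T, hT⟩ := hT₀2.exists_le_sylow
  have hT₀T : ∀ x : Γ, (x : A) ∈ T₀ → x ∈ (T : Subgroup Γ) := fun x hx =>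
    hT (Subgroup.mem_subgroupOf.2 hx)
  -- elements of `T` are `s α^k`
  have hform : ∀ x ∈ (T : Subgroup Γ), ∃ s ∈ S, ∃ k : ℤ, (x : A) = s * α ^ k := by
    intro x hx
    have hxsup : (x : A) ∈ I₀ ⊔ Subgroup.zpowers α := hΓ ▸ x.2
    obtain ⟨i, hi, k, hik⟩ := exists_of_mem_sup I₀ α hxsup
    refine ⟨i, ?_, k, hik⟩
    -- the image of `T ∩ I` is a 2-subgroup of `I₀` containing `S`
    have hQ := hSmax (((T : Subgroup Γ).map Γ.subtype) ⊓ I₀) inf_le_right ?_ ?_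
    · rw [← hQ]
      refine ⟨?_, hi⟩
      have hαT : (⟨α, hαΓ⟩ : Γ) ∈ (T : Subgroup Γ) :=
        hT₀T _ ((le_sup_right : Subgroup.zpowers α ≤ T₀) (Subgroup.mem_zpowers α))
      have hiΓ : (⟨i, hIΓ hi⟩ : Γ) = x * (⟨α, hαΓ⟩ : Γ) ^ (-k) := by
        apply Subtype.ext
        simp [hik]
      exact ⟨⟨i, hIΓ hi⟩, by rw [hiΓ]; exact Subgroup.mul_mem _ hx (Subgroup.zpow_mem _ hαT _), rfl⟩
    · have h2 : IsPGroup 2 ((T : Subgroup Γ).map Γ.subtype) := T.isPGroup'.map _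
      exact h2.to_le inf_le_left
    · intro s hs
      refine ⟨⟨⟨s, hIΓ (hSI hs)⟩, ?_, rfl⟩, hSI hs⟩
      exact hT₀T _ ((le_sup_left : S ≤ T₀) hs)
  have hTcomm : ∀ a ∈ (T : Subgroup Γ), ∀ b ∈ (T : Subgroup Γ), a * b = b * a := by
    intro a ha b hb
    obtain ⟨s, hs, k, hsk⟩ := hform a ha
    obtain ⟨t, ht, l, htl⟩ := hform b hb
    apply Subtype.ext
    show (a : A) * b = b * a
    rw [hsk, htl]
    have h1 : Commute s t := hScomm s hs t ht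
    have h2 : Commute s (α ^ l) := hcommT₀ s hs _ (Subgroup.zpow_mem_zpowers α l)
    have h3 : Commute (α ^ k) t := (hcommT₀ t ht _ (Subgroup.zpow_mem_zpowers α k)).symm
    have h4 : Commute (α ^ k) (α ^ l) := (Commute.refl α).zpow_zpow k l
    exact ((h1.mul_right h2).mul_left (h3.mul_right h4)).eq
  have hle := sylow_le_of_abelian_quot I hab hO' hC' T hTcomm
  have hαT : (⟨α, hαΓ⟩ : Γ) ∈ (T : Subgroup Γ) :=
    hT₀T _ ((le_sup_right : Subgroup.zpowers α ≤ T₀) (Subgroup.mem_zpowers α))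
  exact hle hαT

end Cfsg.Agent.Lib.AutZ
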